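import Cfsg.Agent.H617.Two.EssMain
import Cfsg.Agent.H809.Two.GL32

/-!
# S4543: `|N_D(Q)| = 32` for a local situation with `|Q| = 16`
-/

set_option autoImplicit false
set_option linter.unusedSectionVars false

namespace Cfsg.Agent.H617.Two

open Subgroup

theorem conjQ_mul {D : Type*} [Group D] (Q : Subgroup D) (x y : D)
    (hx : x ∈ normalizer (Q : Set D)) (hy : y ∈ normalizer (Q : Set D))
    (hxy : x * y ∈ normalizer (Q : Set D)) :
    conjQ Q (x * y) hxy = conjQ Q x hx * conjQ Q y hy := by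
  refine MulEquiv.ext fun q => Subtype.ext ?_
  rw [conjQ_apply, MulAut.mul_apply, conjQ_apply, conjQ_apply]
  group

theorem card_norm {D : Type*} [Group D] [Finite D] (hD : Nat.card D = 64) {Q : Subgroup D}
    (hQ : Nat.card Q = 16) (cent : ∀ x : D, (∀ q ∈ Q, x * q = q * x) → x ∈ Q)
    (A : Subgroup (MulAut Q)) (T : Subgroup (MulAut Q))
    (hT : ∀ β : MulAut Q, β ∈ T ↔ ∃ x : D, ∀ q : Q, ((β q : Q) : D) = x * q * x⁻¹)
    (hTA : T ≤ A) (hsyl : ¬ 2 ∣ T.relIndex A)
    (hrad : ∀ N : Subgroup A, N.Normal → IsPGroup 2 N → ∀ β ∈ N, ∃ x ∈ Q,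
      ∀ q : Q, ((((β : A) : MulAut Q) q : Q) : D) = x * q * x⁻¹)
    {V : Type*} [Group V] [Finite V] (h8 : Nat.card V ∣ 8) (hel : ∀ v : V, v * v = 1)
    (φ : A →* MulAut V) (hker : IsPGroup 2 φ.ker)
    (hinn : ∀ β : A, (∃ x ∈ Q, ∀ q : Q, (((β : MulAut Q) q : Q) : D) = x * q * x⁻¹) → φ β = 1) :
    Nat.card (normalizer (Q : Set D)) = 32 := by
  have hp : Fact (Nat.Prime 2) := ⟨Nat.prime_two⟩
  have h2 : IsPGroup 2 D := IsPGroup.of_card (n := 6) (by rw [hD]; norm_num)
  have hne : Q ≠ ⊤ := by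
    rintro rfl
    rw [Subgroup.card_top, hD] at hQ
    omega
  have hnil := h2.isNilpotent
  have hlt : Q < normalizer (Q : Set D) :=
    Group.normalizerCondition_of_isNilpotent Q (lt_top_iff_ne_top.2 hne)
  -- the order of the normalizer
  have hcardN : Nat.card (normalizer (Q : Set D)) ∣ 2 ^ 6 := by
    have := (normalizer (Q : Set D)).card_subgroup_dvd_card
    rwa [hD] at this
  obtain ⟨k, hk, hk'⟩ := (Nat.dvd_prime_pow Nat.prime_two).1 hcardN
  have hlt' : 16 < Nat.card (normalizer (Q : Set D)) := by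
    rw [← hQ]
    exact Set.ncard_lt_ncard hlt
  have hk5 : k = 5 ∨ k = 6 := by
    rw [hk'] at hlt'
    have : 4 < k := by
      by_contra hcon
      have h3 : 2 ^ k ≤ 2 ^ 4 := Nat.pow_le_pow_right (by norm_num) (by omega)
      omega
    omega
  rcases hk5 with h5 | h6
  · rw [hk', h5]; norm_num
  exfalso
  have htop : normalizer (Q : Set D) = ⊤ := by
    rw [← Subgroup.card_eq_iff_eq_top, hk', h6, hD]; norm_num
  have hmemN : ∀ x : D, x ∈ normalizer (Q : Set D) := fun x => by rw [htop]; trivial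
  have hcT : ∀ x : D, conjQ Q x (hmemN x) ∈ T := fun x =>
    (hT _).2 ⟨x, fun q => conjQ_apply Q x (hmemN x) q⟩
  let g : D →* A := MonoidHom.mk' (fun x => ⟨conjQ Q x (hmemN x), hTA (hcT x)⟩) (fun x y =>
    Subtype.ext (conjQ_mul Q x y _ _ _))
  have hg : ∀ (x : D) (q : Q), ((((g x : A) : MulAut Q) q : Q) : D) = x * q * x⁻¹ :=
    fun x q => conjQ_apply Q x (hmemN x) q
  have hkg : (φ.comp g).ker = Q := by
    ext x
    rw [MonoidHom.mem_ker, MonoidHom.comp_apply]
    constructor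
    · intro h1
      obtain ⟨w, hw, hw'⟩ := hrad φ.ker inferInstance hker (g x) h1
      have h3 : w⁻¹ * x ∈ Q := by
        refine cent _ fun q hq => ?_
        have h4 := hw' ⟨q, hq⟩
        rw [hg] at h4
        change x * q * x⁻¹ = w * q * w⁻¹ at h4
        calc w⁻¹ * x * q = w⁻¹ * (x * q * x⁻¹) * x := by group
          _ = w⁻¹ * (w * q * w⁻¹) * x := by rw [h4]
          _ = q * (w⁻¹ * x) := by group
      have h4 := Q.mul_mem hw h3
      rwa [mul_inv_cancel_left] at h4
    · intro hx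
      exact hinn _ ⟨x, hx, hg x⟩
  have hrange : Nat.card (φ.comp g).range = 4 := by
    have h1 := (φ.comp g).ker.index_mul_card
    have h3 := Subgroup.index_ker (φ.comp g)
    have h4 : Nat.card (φ.comp g).ker = 16 := (congrArg (fun K : Subgroup D => Nat.card K) hkg).trans hQ
    rw [h4, hD, h3] at h1
    omega
  -- the image of `T`
  let r := φ.rangeRestrict
  have hr : Function.Surjective r := φ.rangeRestrict_surjective
  have hTr : ((T.subgroupOf A).map r).map φ.range.subtype = (φ.comp g).range := by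
    ext v
    constructor
    · rintro ⟨_, ⟨β, hβ, rfl⟩, rfl⟩
      obtain ⟨x, hx⟩ := (hT β).1 hβ
      refine ⟨x, ?_⟩
      change φ (g x) = φ β
      congr 1
      refine Subtype.ext (MulEquiv.ext fun q => Subtype.ext ?_)
      rw [hg, hx]
    · rintro ⟨x, rfl⟩
      exact ⟨r (g x), ⟨g x, hcT x, rfl⟩, rfl⟩
  have hcT' : Nat.card ((T.subgroupOf A).map r) = 4 := by
    rw [← hrange, ← hTr]
    exact (Subgroup.card_map_of_injective (Subgroup.subtype_injective _)).symm
  have hidx : ¬ 2 ∣ ((T.subgroupOf A).map r).index := fun h =>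
    hsyl (h.trans (Subgroup.index_map_dvd _ hr))
  have hcard := ((T.subgroupOf A).map r).card_mul_index
  rw [hcT'] at hcard
  obtain ⟨N, hN, hN2, hNb⟩ := Cfsg.Agent.H809.Two.T1a h8 hel φ.range
    (by rw [← hcard]; exact dvd_mul_right _ _) (by
      rw [← hcard]
      rintro ⟨c, hc⟩
      exact hidx ⟨c, by omega⟩)
  apply hNb
  rw [eq_bot_iff]
  intro v hv
  obtain ⟨β, rfl⟩ := hr v
  have hker' : IsPGroup 2 r.ker := by
    have : r.ker = φ.ker := φ.ker_rangeRestrict
    rw [this]; exact hker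
  have h1 := hrad (N.comap r) (hN.comap r) (hN2.comap_of_ker_isPGroup r hker') β hv
  rw [Subgroup.mem_bot]
  exact Subtype.ext (hinn β h1)

end Cfsg.Agent.H617.Two
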