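import Cfsg.Agent.H617.Two.EssMain
import Cfsg.Agent.H618.TwoT2
import Cfsg.Agent.H538.Two.Index
import Cfsg.Agent.H547.Two.T5
import Cfsg.Agent.H763.Two.T9
import Cfsg.Agent.H807.S45.TSix
import Cfsg.Agent.H807.S45.TSevenA
import Cfsg.Agent.H809.Two.Struct

/-!
# S4543: the group theory of an essential subgroup, assembly, second part
-/

set_option autoImplicit false
set_option linter.unusedSectionVars false

namespace Cfsg.Agent.H617.Two

open Subgroup

variable {D : Type*} [Group D]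

/-- The fixed points of `a` in `Q`. -/
def fixSub (Q : Subgroup D) (a : D → D) (hmap : ∀ q ∈ Q, a q ∈ Q)
    (hmul : ∀ q ∈ Q, ∀ r ∈ Q, a (q * r) = a q * a r) : Subgroup D where
  carrier := {x | x ∈ Q ∧ a x = x}
  one_mem' := by
    refine ⟨Q.one_mem, ?_⟩
    have h := hmul 1 Q.one_mem 1 Q.one_mem
    rw [mul_one] at h
    exact (left_eq_mul.1 h)
  mul_mem' := by
    rintro x y ⟨hx, hx'⟩ ⟨hy, hy'⟩
    exact ⟨Q.mul_mem hx hy, by rw [hmul x hx y hy, hx', hy']⟩
  inv_mem' := by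
    rintro x ⟨hx, hx'⟩
    refine ⟨Q.inv_mem hx, ?_⟩
    have h1 : a 1 = 1 := by
      have h := hmul 1 Q.one_mem 1 Q.one_mem
      rw [mul_one] at h
      exact (left_eq_mul.1 h)
    have h2 := hmul x hx x⁻¹ (Q.inv_mem hx)
    rw [mul_inv_cancel, h1, hx'] at h2
    exact (eq_inv_of_mul_eq_one_right h2.symm)

theorem mem_fixSub {Q : Subgroup D} {a : D → D} {hmap : ∀ q ∈ Q, a q ∈ Q}
    {hmul : ∀ q ∈ Q, ∀ r ∈ Q, a (q * r) = a q * a r} {x : D} :
    x ∈ fixSub Q a hmap hmul ↔ x ∈ Q ∧ a x = x := Iff.rfl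

/-- Counting fixed points modulo three. -/
theorem card_fixSub_mod [Finite D] (Q : Subgroup D) (a : D → D) (hmap : ∀ q ∈ Q, a q ∈ Q)
    (hmul : ∀ q ∈ Q, ∀ r ∈ Q, a (q * r) = a q * a r) (hcube : ∀ q ∈ Q, a (a (a q)) = q) :
    Nat.card Q ≡ Nat.card (fixSub Q a hmap hmul) [MOD 3] := by
  classical
  have := Fintype.ofFinite Q
  have h3 : Fact (Nat.Prime 3) := ⟨Nat.prime_three⟩
  let f : Function.End Q := fun q => ⟨a q, hmap q q.2⟩
  have hf : f ^ 3 ^ 1 = 1 := by
    funext q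
    exact Subtype.ext (hcube q q.2)
  have h1 := Equiv.Perm.card_fixedPoints_modEq hf
  rw [Nat.card_eq_fintype_card]
  refine h1.trans ?_
  rw [← Nat.card_eq_fintype_card]
  have h2 : Nat.card f.fixedPoints = Nat.card (fixSub Q a hmap hmul) := by
    refine Nat.card_congr
      { toFun := fun x => ⟨x.1.1, x.1.2, congrArg Subtype.val (show f x.1 = x.1 from x.2)⟩
        invFun := fun x => ⟨⟨x.1, x.2.1⟩, Subtype.ext x.2.2⟩
        left_inv := fun _ => rfl
        right_inv := fun _ => rfl }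
  rw [h2]

theorem Good.isPGroup (hG : Good D) : IsPGroup 2 D :=
  IsPGroup.of_card (n := 6) (by rw [hG.card]; norm_num)

variable [Finite D] {z : D} {Q : Subgroup D} {A : Subgroup (MulAut Q)}

/-- The last case, or nothing. -/
theorem ess_last (hG : Good D) (hz : z ∈ center D) (hz1 : z ≠ 1) (h : Ess z Q A) :
    Last Q z ∧ ∃ w ∈ center D, w ≠ 1 ∧ w ≠ z := by
  have h2 := hG.isPGroup
  have hp : Fact (Nat.Prime 2) := ⟨Nat.prime_two⟩
  have hzz := hG.centre z hz
  have hzQ := h.mem hz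
  have hdvd : Nat.card Q ∣ 2 ^ 6 := by
    have h1 := Q.card_subgroup_dvd_card
    rwa [hG.card] at h1
  obtain ⟨k, hk, hcard⟩ := (Nat.dvd_prime_pow Nat.prime_two).1 hdvd
  have hne : Nat.card Q ≠ 64 := by
    intro h1
    exact h.ne ((Subgroup.card_eq_iff_eq_top Q).1 (h1.trans hG.card.symm))
  have hle := h.not_card_le_four h2 hz hz1 hzz
  have h8 : Nat.card Q ≠ 8 := fun h8 =>
    Cfsg.Agent.H763.Two.T9 hG h8 hz hz1 hzQ fun x hx => h.self hz hzz x hx
  have hcase : Nat.card Q = 16 ∨ Nat.card Q = 32 := by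
    interval_cases k
    · exact absurd (by rw [hcard]; norm_num) hle
    · exact absurd (by rw [hcard]; norm_num) hle
    · exact absurd (by rw [hcard]; norm_num) hle
    · exact absurd (by rw [hcard]; norm_num) h8
    · left; rw [hcard]; norm_num
    · right; rw [hcard]; norm_num
    · exact absurd (by rw [hcard]; norm_num) hne
  obtain ⟨hN, a, y, hL⟩ := Cfsg.Agent.H618.TwoT2.T2 hG hz hz1 h.ne (by rcases hcase with h | h <;> omega) h.cent A
    h.fix (autD Q) (fun β => mem_autD) (fun β hβ => h.conj β hβ) (h.syl _ fun β => mem_autD) h.rad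
  set R := fixSub Q a hL.map hL.mul with hR
  have hRm : ∀ x, x ∈ R ↔ x ∈ Q ∧ a x = x := fun x => mem_fixSub
  have hRQ : R ≤ Q := fun x hx => hx.1
  have hzR : z ∈ R := ⟨hzQ, hL.az⟩
  have hmod := card_fixSub_mod Q a hL.map hL.mul hL.cube
  rw [← hR] at hmod
  have hRdvd : Nat.card R ∣ Nat.card Q := Subgroup.card_dvd_of_le hRQ
  have hR1 : Nat.card R ≠ 1 := by
    intro h1
    have h3 := Subgroup.card_eq_one.1 h1
    rw [h3, Subgroup.mem_bot] at hzR
    exact hz1 hzR
  have hRne : Nat.card R ≠ Nat.card Q := by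
    intro h1
    have h3 : R = Q := Subgroup.eq_of_le_of_card_ge hRQ h1.ge
    obtain ⟨q, hq, hq'⟩ := hL.ne
    rw [← h3] at hq
    exact hq' hq.2
  have hRk : Nat.card R ∣ 2 ^ 6 := hRdvd.trans hdvd
  obtain ⟨j, hj, hjc⟩ := (Nat.dvd_prime_pow Nat.prime_two).1 hRk
  have key : (Nat.card Q = 16 ∧ Nat.card Q = 4 * Nat.card R) ∨
      (Nat.card Q = 32 ∧ Nat.card Q = 4 * Nat.card R) ∨ (Nat.card Q = 32 ∧ Nat.card R = 2) := by
    unfold Nat.ModEq at hmod
    rcases hcase with h16 | h32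
    · rw [h16] at hmod hRdvd hRne ⊢
      rw [hjc] at hmod hRdvd hRne hR1 ⊢
      interval_cases j <;> simp at * 
    · rw [h32] at hmod hRdvd hRne ⊢
      rw [hjc] at hmod hRdvd hRne hR1 ⊢
      interval_cases j <;> simp at *
  rcases key with ⟨h16, h4⟩ | ⟨h32, h4⟩ | ⟨h32, hR2⟩
  · exfalso
    obtain ⟨y', p, q, hS⟩ := Cfsg.Agent.H809.Two.Struct.T3 h2 hL hRm h4
    by_cases hs : p * p = 1
    · exact Cfsg.Agent.H547.Two.T5 hG hS h16 (hN h16) hs
    · exact Cfsg.Agent.H807.S45.T6 hG hS h16 (hN h16) hs hz hz1 hzQ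
  · exfalso
    obtain ⟨y', p, q, hS⟩ := Cfsg.Agent.H809.Two.Struct.T3 h2 hL hRm h4
    exact Cfsg.Agent.H538.Two.T4 hG hS h32
  · refine Cfsg.Agent.H807.S45.T7a hG hL h32 fun x hx hax => ?_
    have hxR : x ∈ R := ⟨hx, hax⟩
    by_contra hcon
    rw [not_or] at hcon
    have h3 : 3 ≤ Nat.card R := by
      classical
      have := Fintype.ofFinite R
      rw [Nat.card_eq_fintype_card]
      have h5 : ({1, ⟨z, hzR⟩, ⟨x, hxR⟩} : Finset R).card = 3 := by
        rw [Finset.card_insert_of_notMem, Finset.card_insert_of_notMem, Finset.card_singleton]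
        · rw [Finset.mem_singleton]
          exact fun h => hcon.2 (congrArg Subtype.val h).symm
        · simp only [Finset.mem_insert, Finset.mem_singleton, not_or]
          exact ⟨fun h => hz1 (congrArg Subtype.val h).symm,
            fun h => hcon.1 (congrArg Subtype.val h).symm⟩
      rw [← h5]
      exact Finset.card_le_univ _
    omega

/-- A good central element exists. -/
theorem exists_good (hG : Good D) :
    ∃ z ∈ center D, z ≠ 1 ∧ ∀ (Q : Subgroup D) (A : Subgroup (MulAut Q)), ¬ Ess z Q A := by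
  have hp : Fact (Nat.Prime 2) := ⟨Nat.prime_two⟩
  have h2 := hG.isPGroup
  have hnt : Nontrivial D := by
    rw [← Finite.one_lt_card_iff_nontrivial, hG.card]
    norm_num
  have hc := h2.center_nontrivial
  obtain ⟨⟨z, hz⟩, hz1⟩ := exists_ne (1 : center D)
  have hz1' : z ≠ 1 := fun h => hz1 (Subtype.ext h)
  by_cases hgood : ∀ (Q : Subgroup D) (A : Subgroup (MulAut Q)), ¬ Ess z Q A
  · exact ⟨z, hz, hz1', hgood⟩
  · push Not at hgood
    obtain ⟨Q, A, hE⟩ := hgood
    obtain ⟨hlast, w, hw, hw1, hwz⟩ := ess_last hG hz hz1' hE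
    refine ⟨w, hw, hw1, fun Q' A' hE' => ?_⟩
    obtain ⟨hlast', -⟩ := ess_last hG hw hw1 hE'
    exact hwz (Cfsg.Agent.H763.Two.T7b hG hlast' hlast hw hz)

end Cfsg.Agent.H617.Two
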