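import Cfsg.Agent.H617.Two.Defs

/-!
# S4543: the group theory of an essential subgroup, assembly

`exists_good`: a nonabelian group `D` with `Good D` has a central element `z ≠ 1` such that no
subgroup `Q` has a local situation `Ess z Q A`.
-/

set_option autoImplicit false

namespace Cfsg.Agent.H617.Two

open Subgroup

/-- The local situation at an essential subgroup `Q` with automorphism group `A` fixing `z`. -/
structure Ess {D : Type*} [Group D] (z : D) (Q : Subgroup D) (A : Subgroup (MulAut Q)) : Prop where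
  ne : Q ≠ ⊤
  cent : ∀ x : D, (∀ q ∈ Q, x * q = q * x) → x ∈ Q
  fix : ∀ β ∈ A, ∀ q : Q, (q : D) = z → β q = q
  conj : ∀ β : MulAut Q, (∃ x : D, ∀ q : Q, ((β q : Q) : D) = x * q * x⁻¹) → β ∈ A
  syl : ∀ T : Subgroup (MulAut Q),
    (∀ β, β ∈ T ↔ ∃ x : D, ∀ q : Q, ((β q : Q) : D) = x * q * x⁻¹) → ¬ 2 ∣ T.relIndex A
  rad : ∀ N : Subgroup A, N.Normal → IsPGroup 2 N → ∀ β ∈ N, ∃ x ∈ Q,
      ∀ q : Q, ((((β : A) : MulAut Q) q : Q) : D) = x * q * x⁻¹

variable {D : Type*} [Group D]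

/-- Conjugation by an element normalizing `Q`, as an automorphism of `Q`. -/
noncomputable def conjQ (Q : Subgroup D) (x : D) (hx : x ∈ normalizer (Q : Set D)) : MulAut Q :=
  (MulAut.conjNormal (⟨x, hx⟩ : normalizer (Q : Set D)) : MulAut (Q.subgroupOf _)).trans
    (MulEquiv.refl _) |> fun e =>
      ((Subgroup.subgroupOfEquivOfLe (Subgroup.le_normalizer (H := Q))).symm.trans e).trans
        (Subgroup.subgroupOfEquivOfLe (Subgroup.le_normalizer (H := Q)))

theorem conjQ_apply (Q : Subgroup D) (x : D) (hx : x ∈ normalizer (Q : Set D)) (q : Q) :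
    ((conjQ Q x hx q : Q) : D) = x * q * x⁻¹ := rfl

/-- The automorphisms of `Q` induced by conjugation in `D`. -/
def autD (Q : Subgroup D) : Subgroup (MulAut Q) where
  carrier := {β | ∃ x : D, ∀ q : Q, ((β q : Q) : D) = x * q * x⁻¹}
  one_mem' := ⟨1, fun q => by simp⟩
  mul_mem' := by
    rintro β γ ⟨x, hx⟩ ⟨y, hy⟩
    refine ⟨x * y, fun q => ?_⟩
    rw [MulAut.mul_apply, hx, hy]
    group
  inv_mem' := by
    rintro β ⟨x, hx⟩
    refine ⟨x⁻¹, fun q => ?_⟩
    have h := hx (β⁻¹ q)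
    rw [← MulAut.mul_apply, mul_inv_cancel, MulAut.one_apply] at h
    rw [h]
    group

theorem mem_autD {Q : Subgroup D} {β : MulAut Q} :
    β ∈ autD Q ↔ ∃ x : D, ∀ q : Q, ((β q : Q) : D) = x * q * x⁻¹ := Iff.rfl

section ess

variable [Finite D] {z : D} {Q : Subgroup D} {A : Subgroup (MulAut Q)}

theorem Ess.mem (h : Ess z Q A) (hz : z ∈ center D) : z ∈ Q :=
  h.cent z fun q _ => (mem_center_iff.1 hz q).symm

omit [Finite D] in
/-- An element acting on `Q` like an element of `Q` lies in `Q`. -/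
theorem Ess.mem_of_conj (h : Ess z Q A) {x w : D} (hw : w ∈ Q)
    (hx : ∀ q ∈ Q, x * q * x⁻¹ = w * q * w⁻¹) : x ∈ Q := by
  have h1 : w⁻¹ * x ∈ Q := by
    refine h.cent _ fun q hq => ?_
    have h2 := hx q hq
    calc w⁻¹ * x * q = w⁻¹ * (x * q * x⁻¹) * x := by group
      _ = w⁻¹ * (w * q * w⁻¹) * x := by rw [h2]
      _ = q * (w⁻¹ * x) := by group
  have h3 := Q.mul_mem hw h1
  rwa [mul_inv_cancel_left] at h3

theorem Ess.exists_norm (h : Ess z Q A) (h2 : IsPGroup 2 D) :
    ∃ y ∈ normalizer (Q : Set D), y ∉ Q := by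
  have := Fact.mk Nat.prime_two
  have hnil := h2.isNilpotent
  have h1 : Q < normalizer (Q : Set D) := Group.normalizerCondition_of_isNilpotent Q (lt_top_iff_ne_top.2 h.ne)
  obtain ⟨y, hy, hyQ⟩ := SetLike.exists_of_lt h1
  exact ⟨y, hy, hyQ⟩

/-- `A` is not a 2-group. -/
theorem Ess.not_isPGroup (h : Ess z Q A) (h2 : IsPGroup 2 D) : ¬ IsPGroup 2 A := by
  intro hA
  obtain ⟨y, hy, hyQ⟩ := h.exists_norm h2
  have hmem : conjQ Q y hy ∈ A := h.conj _ ⟨y, fun q => conjQ_apply Q y hy q⟩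
  obtain ⟨w, hw, hw1⟩ := h.rad ⊤ inferInstance (hA.to_subgroup ⊤) ⟨_, hmem⟩ trivial
  exact hyQ (h.mem_of_conj hw fun q hq => hw1 ⟨q, hq⟩)

/-- `Q / ⟨z⟩` is self-centralizing. -/
theorem Ess.self (h : Ess z Q A) (hz : z ∈ center D) (hzz : z * z = 1) (x : D)
    (hx : ∀ q ∈ Q, x * q = q * x ∨ x * q = z * (q * x)) : x ∈ Q := by
  have hzc : ∀ w, w * z = z * w := fun w => mem_center_iff.1 hz w
  have hzQ := h.mem hz
  have hxN : x ∈ normalizer (Q : Set D) := by
    have h1 : ∀ q ∈ Q, x * q * x⁻¹ ∈ Q := by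
      intro q hq
      rcases hx q hq with h2 | h2
      · rw [h2, mul_inv_cancel_right]; exact hq
      · rw [h2, mul_assoc, mul_inv_cancel_right]; exact Q.mul_mem hzQ hq
    rw [mem_normalizer_iff]
    intro q
    refine ⟨h1 q, fun hq => ?_⟩
    -- finiteness: conjugation by `x` maps `Q` into `Q`, so onto
    obtain ⟨⟨r, hr⟩, hr'⟩ := (Finite.injective_iff_surjective (f := fun r : Q =>
      (⟨x * r * x⁻¹, h1 r r.2⟩ : Q))).1 (by
        intro r s hrs
        have := congrArg Subtype.val hrs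
        exact Subtype.ext (by simpa using this)) ⟨_, hq⟩
    have h3 : x * r * x⁻¹ = x * q * x⁻¹ := congrArg Subtype.val hr'
    have h4 : r = q := by simpa using h3
    exact h4 ▸ hr
  have hmem : conjQ Q x hxN ∈ A := h.conj _ ⟨x, fun q => conjQ_apply Q x hxN q⟩
  -- the normal subgroup
  let N : Subgroup A :=
    { carrier := {β | ∀ q : Q, (((β : MulAut Q) q : Q) : D) = q ∨
        (((β : MulAut Q) q : Q) : D) = z * q}
      one_mem' := fun q => Or.inl rfl
      mul_mem' := by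
        intro β γ hβ hγ q
        have hb := hβ ((γ : MulAut Q) q)
        change (((β : MulAut Q) ((γ : MulAut Q) q) : Q) : D) = q ∨
          (((β : MulAut Q) ((γ : MulAut Q) q) : Q) : D) = z * q
        rcases hγ q with h1 | h1 <;> rcases hb with h2 | h2
        · left; rw [h2, h1]
        · right; rw [h2, h1]
        · right; rw [h2, h1]
        · left; rw [h2, h1, ← mul_assoc, hzz, one_mul]
      inv_mem' := by
        intro β hβ q
        have hb := hβ ((β⁻¹ : A).1 q)
        have h1 : (β : MulAut Q) ((β⁻¹ : A).1 q) = q := by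
          change (β : MulAut Q) ((β : MulAut Q)⁻¹ q) = q
          rw [← MulAut.mul_apply, mul_inv_cancel, MulAut.one_apply]
        rw [h1] at hb
        rcases hb with h2 | h2
        · left; exact h2.symm
        · right
          rw [h2, ← mul_assoc, hzz, one_mul] }
  have hN : N.Normal := by
    refine ⟨fun β hβ γ q => ?_⟩
    change (((γ : MulAut Q) ((β : MulAut Q) ((γ : MulAut Q)⁻¹ q)) : Q) : D) = q ∨
      (((γ : MulAut Q) ((β : MulAut Q) ((γ : MulAut Q)⁻¹ q)) : Q) : D) = z * q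
    have hγ : (γ : MulAut Q) ((γ : MulAut Q)⁻¹ q) = q := by
      rw [← MulAut.mul_apply, mul_inv_cancel, MulAut.one_apply]
    rcases hβ ((γ : MulAut Q)⁻¹ q) with h1 | h1
    · left
      have h2 : (β : MulAut Q) ((γ : MulAut Q)⁻¹ q) = (γ : MulAut Q)⁻¹ q := Subtype.ext h1
      rw [h2, hγ]
    · right
      have h2 : (β : MulAut Q) ((γ : MulAut Q)⁻¹ q) = ⟨z, hzQ⟩ * (γ : MulAut Q)⁻¹ q :=
        Subtype.ext h1
      rw [h2, map_mul, hγ, h.fix _ γ.2 ⟨z, hzQ⟩ rfl]
      rfl
  have hN2 : IsPGroup 2 N := by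
    intro β
    refine ⟨1, ?_⟩
    rw [pow_one, sq]
    refine Subtype.ext (Subtype.ext (MulEquiv.ext fun q => Subtype.ext ?_))
    change ((((β : A) : MulAut Q) (((β : A) : MulAut Q) q) : Q) : D) = q
    rcases β.2 q with h1 | h1
    · have h2 : ((β : A) : MulAut Q) q = q := Subtype.ext h1
      rw [h2, h2]
    · have h2 : ((β : A) : MulAut Q) q = ⟨z, hzQ⟩ * q := Subtype.ext h1
      have h3 : ((β : A) : MulAut Q) ⟨z, hzQ⟩ = ⟨z, hzQ⟩ := h.fix _ (β : A).2 ⟨z, hzQ⟩ rfl
      rw [h2, map_mul, h3, h2]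
      change z * (z * (q : D)) = q
      rw [← mul_assoc, hzz, one_mul]
  have hxm : (⟨_, hmem⟩ : A) ∈ N := by
    intro q
    change x * (q : D) * x⁻¹ = q ∨ x * (q : D) * x⁻¹ = z * q
    rcases hx q q.2 with h1 | h1
    · left; rw [h1, mul_inv_cancel_right]
    · right; rw [h1, mul_assoc, mul_inv_cancel_right]
  obtain ⟨w, hw, hw1⟩ := h.rad N hN hN2 ⟨_, hmem⟩ hxm
  exact h.mem_of_conj hw fun q hq => hw1 ⟨q, hq⟩

/-- `|Q| ≥ 8`. -/
theorem Ess.not_card_le_four (h : Ess z Q A) (h2 : IsPGroup 2 D) (hz : z ∈ center D)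
    (hz1 : z ≠ 1) (hzz : z * z = 1) (hQ : Nat.card Q ≤ 4) : False := by
  apply h.not_isPGroup h2
  have hzQ := h.mem hz
  intro β
  refine ⟨1, ?_⟩
  rw [pow_one, sq]
  refine Subtype.ext (MulEquiv.ext fun q => ?_)
  change (β : MulAut Q) ((β : MulAut Q) q) = q
  set Z : Q := ⟨z, hzQ⟩ with hZ
  have hZ1 : Z ≠ 1 := fun h => hz1 (congrArg Subtype.val h)
  have hZZ : Z * Z = 1 := Subtype.ext hzz
  have hβZ : (β : MulAut Q) Z = Z := h.fix _ β.2 Z rfl
  by_contra hne
  have h1 : (β : MulAut Q) q ≠ q := fun h => hne (by rw [h, h])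
  -- `1, Z, q, β q, Z q` are distinct unless `β q = Z q`
  have hq1 : q ≠ 1 := fun h => h1 (by rw [h, map_one])
  have hqZ : q ≠ Z := fun h => h1 (by rw [h, hβZ])
  have hb1 : (β : MulAut Q) q ≠ 1 := fun h => hq1 (by
    have := congrArg (β : MulAut Q).symm h
    simpa using this)
  have hbZ : (β : MulAut Q) q ≠ Z := fun h => hqZ ((β : MulAut Q).injective (by rw [h, hβZ]))
  by_cases hb : (β : MulAut Q) q = Z * q
  · apply hne
    rw [hb, map_mul, hβZ, hb, ← mul_assoc, hZZ, one_mul]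
  · have hZq1 : Z * q ≠ 1 := fun h => hqZ (by
      have : Z * (Z * q) = Z := by rw [h, mul_one]
      rwa [← mul_assoc, hZZ, one_mul] at this)
    have hZqZ : Z * q ≠ Z := fun h => hq1 (mul_eq_left.1 h)
    have hZqq : Z * q ≠ q := fun h => hZ1 (mul_eq_right.1 h)
    have : 5 ≤ Nat.card Q := by
      classical
      have := Fintype.ofFinite Q
      rw [Nat.card_eq_fintype_card]
      have h5 : ({1, Z, q, (β : MulAut Q) q, Z * q} : Finset Q).card = 5 := by
        rw [Finset.card_insert_of_notMem, Finset.card_insert_of_notMem,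
          Finset.card_insert_of_notMem, Finset.card_insert_of_notMem, Finset.card_singleton]
        · simp only [Finset.mem_singleton]; exact hb
        · simp only [Finset.mem_insert, Finset.mem_singleton, not_or]
          exact ⟨h1.symm, hZqq.symm⟩
        · simp only [Finset.mem_insert, Finset.mem_singleton, not_or]
          exact ⟨hqZ.symm, hbZ.symm, hZqZ.symm⟩
        · simp only [Finset.mem_insert, Finset.mem_singleton, not_or]
          exact ⟨hZ1.symm, hq1.symm, hb1.symm, hZq1.symm⟩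
      rw [← h5]
      exact Finset.card_le_univ _
    omega

end ess

end Cfsg.Agent.H617.Two
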