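import Cfsg.Agent.H617.Two.BlockMain

/-!
# S4543 from S4542 and S4544
-/

set_option autoImplicit false
set_option linter.unusedSectionVars false

open Cfsg

namespace Cfsg.Agent.H617.Two

universe u

/-- The statement of S4542 for `p = 2`. -/
def St42 (M : Ideal AlgInt) : Prop :=
  ∀ {G : Type u} [Group G] [Finite G] (B : Set (IrrCharacter G)), IsPBlock M B →
    ∀ D : Subgroup G, IsDefectGroup 2 M B D → ∀ Z : Subgroup G, Z ≤ D →
      (∀ z ∈ Z, ∀ d ∈ D, z * d = d * z) → IsCyclic Z → Z.relIndex D ≤ 16 →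
        Nat.card B ≤ Nat.card D

/-- The statement of S4544. -/
def St44 (M : Ideal AlgInt) : Prop :=
  ∀ {G : Type u} [Group G] [Finite G] (B : Set (IrrCharacter G)), IsPBlock M B →
    ∀ D : Subgroup G, IsDefectGroup 2 M B D → ∀ C : Subgroup G, C ≤ D →
      IsCyclic C → C.relIndex D ≤ 4 → Nat.card B ≤ Nat.card D

/-- Two commuting involutions generate a group of order at most four. -/
theorem card_le_four {D : Type*} [Group D] {a b : D}
    (hgen : Subgroup.closure ({a, b} : Set D) = ⊤) (hab : a * b = b * a) (ha : a * a = 1)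
    (hb : b * b = 1) : Nat.card D ≤ 4 := by
  classical
  have key : ∀ x : D, x ∈ ({1, a, b, a * b} : Finset D) := by
    intro x
    have hx : x ∈ Subgroup.closure ({a, b} : Set D) := by rw [hgen]; trivial
    have ha' : a⁻¹ = a := inv_eq_of_mul_eq_one_right ha
    have hb' : b⁻¹ = b := inv_eq_of_mul_eq_one_right hb
    have hmul : ∀ y ∈ ({1, a, b, a * b} : Finset D), y * a ∈ ({1, a, b, a * b} : Finset D) ∧
        y * b ∈ ({1, a, b, a * b} : Finset D) := by
      intro y hy
      simp only [Finset.mem_insert, Finset.mem_singleton] at hy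
      rcases hy with rfl | rfl | rfl | rfl
      · simp
      · simp [ha]
      · simp [hb, hab]
      · have h1 : a * b * a = b := by rw [hab, mul_assoc, ha, mul_one]
        have h2 : a * b * b = a := by rw [mul_assoc, hb, mul_one]
        rw [h1, h2]
        simp
    refine Subgroup.closure_induction_right (p := fun y _ => y ∈ ({1, a, b, a * b} : Finset D))
      (by simp) ?_ ?_ hx
    · rintro y hy g (rfl | rfl) h1
      · exact (hmul y h1).1
      · exact (hmul y h1).2
    · rintro y hy g (rfl | rfl) h1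
      · rw [ha']; exact (hmul y h1).1
      · rw [hb']; exact (hmul y h1).2
  have hfin : Finite D := Finite.of_surjective (fun x : ({1, a, b, a * b} : Finset D) => (x : D))
    fun x => ⟨⟨x, key x⟩, rfl⟩
  have := Fintype.ofFinite D
  rw [Nat.card_eq_fintype_card]
  have h1 : (Finset.univ : Finset D) ⊆ {1, a, b, a * b} := fun x _ => key x
  refine (Finset.card_le_card h1).trans ?_
  refine (Finset.card_insert_le _ _).trans ?_
  refine (Nat.add_le_add_right (Finset.card_insert_le _ _) 1).trans ?_
  refine (Nat.add_le_add_right (Nat.add_le_add_right (Finset.card_insert_le _ _) 1) 1).trans ?_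
  rw [Finset.card_singleton]

theorem relIndex_zpowers {G : Type*} [Group G] [Finite G] {D : Subgroup G} {x : G} (hx : x ∈ D) :
    orderOf x * (Subgroup.zpowers x).relIndex D = Nat.card D := by
  have h1 : Subgroup.zpowers x ≤ D := by rwa [Subgroup.zpowers_le]
  rw [← Nat.card_zpowers]
  have h2 := Subgroup.card_mul_index ((Subgroup.zpowers x).subgroupOf D)
  rwa [Nat.card_congr (Subgroup.subgroupOfEquivOfLe h1).toEquiv] at h2

theorem main {G : Type u} [Group G] [Finite G] {M : Ideal AlgInt} (hM : IsPModular 2 M)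
    (h42 : St42.{u} M) (h44 : St44.{u} M)
    {B : Set (IrrCharacter G)} (hB : IsPBlock M B) {D : Subgroup G} (hD : IsDefectGroup 2 M B D)
    (hcard : Nat.card D ≤ 64)
    (hgen : ∃ x ∈ D, ∃ y ∈ D, Subgroup.closure ({x, y} : Set G) = D) :
    Nat.card B ≤ Nat.card D := by
  have hp : Fact (Nat.Prime 2) := ⟨Nat.prime_two⟩
  have hc2 : Nat.card D = 2 ^ blockDefect 2 B := S0908.result 2 M hM B hB D hD
  obtain ⟨d, hd⟩ : ∃ d, Nat.card D = 2 ^ d := ⟨_, hc2⟩
  have hDp : IsPGroup 2 D := IsPGroup.of_card hd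
  have hd6 : d ≤ 6 := by
    rw [hd] at hcard
    have : 2 ^ d ≤ 2 ^ 6 := hcard
    exact (Nat.pow_le_pow_iff_right (by norm_num)).1 this
  -- central elements
  have hcen : ∀ z : D, z ∈ Subgroup.center D → Nat.card D ≤ 16 * orderOf (z : G) →
      Nat.card B ≤ Nat.card D := by
    intro z hz hle
    refine h42 B hB D hD (Subgroup.zpowers (z : G)) (by rw [Subgroup.zpowers_le]; exact z.2) ?_
      inferInstance ?_
    · intro w hw w' hw'
      obtain ⟨k, rfl⟩ := Subgroup.mem_zpowers_iff.1 hw
      have h1 := Subgroup.mem_center_iff.1 hz ⟨w', hw'⟩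
      have h2 : Commute (z : G) w' := (congrArg Subtype.val h1).symm
      exact h2.zpow_left k
    · have h1 := relIndex_zpowers z.2
      have h2 : 0 < orderOf (z : G) := orderOf_pos _
      have h3 : orderOf (z : G) * (Subgroup.zpowers (z : G)).relIndex D ≤ orderOf (z : G) * 16 := by
        rw [h1, mul_comm]; exact hle
      exact Nat.le_of_mul_le_mul_left h3 h2
  by_cases hd4 : d ≤ 4
  · refine hcen 1 (Subgroup.one_mem _) ?_
    rw [hd]
    have : 2 ^ d ≤ 2 ^ 4 := Nat.pow_le_pow_right (by norm_num) hd4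
    rw [Subgroup.coe_one, orderOf_one]
    omega
  by_cases hd5 : d = 5
  · have hnt : Nontrivial D := by
      rw [← Finite.one_lt_card_iff_nontrivial, hd, hd5]; norm_num
    obtain ⟨z, hz1⟩ := @exists_ne _ hDp.center_nontrivial 1
    refine hcen z z.2 ?_
    have h1 : 2 ≤ orderOf ((z : D) : G) := by
      have h2 : ((z : D) : G) ≠ 1 := fun h => hz1 (Subtype.ext (Subtype.ext h))
      have h3 : orderOf ((z : D) : G) ≠ 1 := fun h => h2 (orderOf_eq_one_iff.1 h)
      have h4 : 0 < orderOf ((z : D) : G) := orderOf_pos _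
      omega
    rw [hd, hd5]
    omega
  have hd6' : d = 6 := by omega
  have h64 : Nat.card D = 64 := by rw [hd, hd6']; norm_num
  by_cases hZ : ∀ z ∈ Subgroup.center D, z * z = 1
  swap
  · push Not at hZ
    obtain ⟨z, hz, hzz⟩ := hZ
    refine hcen z hz ?_
    rw [h64]
    have h0 : 0 < orderOf (z : G) := orderOf_pos _
    have h1 : orderOf (z : G) ∣ 2 ^ 6 := by
      rw [Subgroup.orderOf_coe]
      have := orderOf_dvd_natCard z
      rwa [h64] at this
    obtain ⟨k, -, hk⟩ := (Nat.dvd_prime_pow Nat.prime_two).1 h1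
    have h2 : ¬ k ≤ 1 := by
      intro hk1
      apply hzz
      have h3 : orderOf z ∣ 2 := by
        rw [← Subgroup.orderOf_coe, hk]
        exact pow_dvd_pow 2 hk1
      rw [← sq]
      exact orderOf_dvd_iff_pow_eq_one.1 h3
    have h3 : 2 ^ 2 ≤ orderOf (z : G) := by
      rw [hk]; exact Nat.pow_le_pow_right (by norm_num) (by omega)
    omega
  by_cases hE : ∀ x : D, x ^ 8 = 1
  swap
  · push Not at hE
    obtain ⟨x, hx⟩ := hE
    refine h44 B hB D hD (Subgroup.zpowers (x : G)) (by rw [Subgroup.zpowers_le]; exact x.2)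
      inferInstance ?_
    have h1 : orderOf (x : G) ∣ 2 ^ 6 := by
      rw [Subgroup.orderOf_coe]
      have := orderOf_dvd_natCard x
      rwa [h64] at this
    obtain ⟨k, -, hk⟩ := (Nat.dvd_prime_pow Nat.prime_two).1 h1
    have h2 : ¬ k ≤ 3 := by
      intro hk1
      apply hx
      have h3 : orderOf x ∣ 8 := by
        rw [← Subgroup.orderOf_coe, hk]
        exact pow_dvd_pow 2 hk1
      exact orderOf_dvd_iff_pow_eq_one.1 h3
    have h3 : 2 ^ 4 ≤ orderOf (x : G) := by
      rw [hk]; exact Nat.pow_le_pow_right (by norm_num) (by omega)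
    have h4 := relIndex_zpowers x.2
    rw [h64] at h4
    by_contra hcon
    push Not at hcon
    have h5 : 16 * 5 ≤ orderOf (x : G) * (Subgroup.zpowers (x : G)).relIndex D :=
      Nat.mul_le_mul (by simpa using h3) hcon
    omega
  obtain ⟨x, hx, y, hy, hxy⟩ := hgen
  have hgen' : Subgroup.closure ({⟨x, hx⟩, ⟨y, hy⟩} : Set D) = ⊤ := by
    have h1 : (Subgroup.closure ({⟨x, hx⟩, ⟨y, hy⟩} : Set D)).map D.subtype = D := by
      rw [MonoidHom.map_closure, Set.image_pair]
      exact hxy
    apply Subgroup.map_injective (Subgroup.subtype_injective D)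
    rw [h1, ← MonoidHom.range_eq_map, Subgroup.range_subtype]
  have hG : Good D := ⟨h64, ⟨_, _, hgen'⟩, hE, hZ⟩
  by_cases hna : ∃ a b : D, a * b ≠ b * a
  · exact card_le_of_good hM hB hD hG hna
  · exfalso
    push Not at hna
    have hcen' : ∀ a : D, a ∈ Subgroup.center D := fun a =>
      Subgroup.mem_center_iff.2 fun g => hna g a
    have h1 := card_le_four hgen' (hna _ _) (hZ _ (hcen' _)) (hZ _ (hcen' _))
    omega

end Cfsg.Agent.H617.Two
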